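import Mathlib
import Cfsg.Prelude.Def_Transfer
import Cfsg.Agent.Lib.Helper24.ES3.Defs

set_option autoImplicit false

namespace Cfsg.Agent.Lib.Helper24.ES3

open scoped commutatorElement

variable {G : Type*} [Group G]

/-- A1 -/
theorem dat_of_extraspecial [Finite G] {p : ℕ} [Fact p.Prime] (P : Sylow p G)
    (hE : Cfsg.IsExtraspecial p ↥P) (hcard : Nat.card P = p ^ 3)
    (hexp : Monoid.exponent ↥P = p) : ∃ z : G, Dat p (P : Subgroup G) z := by
  have hp : p.Prime := Fact.out
  obtain ⟨⟨-, -, hcomm⟩, hcen⟩ := hE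
  haveI : IsCyclic (Subgroup.center ↥P) := isCyclic_of_prime_card hcen
  obtain ⟨c, hc⟩ := IsCyclic.exists_generator (α := Subgroup.center ↥P)
  have hgen : ∀ u : ↥P, u ∈ Subgroup.center ↥P → ∃ k : ℕ, (u : G) = ((c : ↥P) : G) ^ k := by
    intro u hu
    have h1 := hc ⟨u, hu⟩
    rw [← mem_powers_iff_mem_zpowers] at h1
    obtain ⟨k, hk⟩ := h1
    refine ⟨k, ?_⟩
    have h2 := congrArg (fun t : Subgroup.center ↥P => ((t : ↥P) : G)) hk
    simpa using h2.symm
  refine ⟨((c : ↥P) : G), hcard, ?_, (c : ↥P).2, ?_, ?_, ?_, ?_⟩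
  · intro x hx
    have h1 : (⟨x, hx⟩ : ↥P) ^ p = 1 := by
      have h0 := Monoid.pow_exponent_eq_one (⟨x, hx⟩ : ↥P)
      rwa [hexp] at h0
    simpa using congrArg Subtype.val h1
  · intro h1
    have hc1 : c = 1 := by
      apply Subtype.ext
      apply Subtype.ext
      exact h1
    have hall : ∀ t : Subgroup.center ↥P, t = 1 := by
      intro t
      have := hc t
      rw [hc1, Subgroup.zpowers_one_eq_bot, Subgroup.mem_bot] at this
      exact this
    have hsub : Subsingleton (Subgroup.center ↥P) := ⟨fun a b => by rw [hall a, hall b]⟩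
    have : Nat.card (Subgroup.center ↥P) = 1 := Nat.card_of_subsingleton 1
    rw [hcen] at this
    exact hp.one_lt.ne' this
  · intro x hx
    have h1 := (Subgroup.mem_center_iff.1 c.2) ⟨x, hx⟩
    exact congrArg Subtype.val h1
  · intro x hx y hy
    have h1 : ⁅(⟨x, hx⟩ : ↥P), (⟨y, hy⟩ : ↥P)⁆ ∈ Subgroup.center ↥P := by
      rw [← hcomm]
      exact Subgroup.commutator_mem_commutator (Subgroup.mem_top _) (Subgroup.mem_top _)
    obtain ⟨k, hk⟩ := hgen _ h1
    exact ⟨k, by rw [← hk]; simp [commutatorElement_def]⟩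
  · intro x hx hall
    apply hgen ⟨x, hx⟩
    rw [Subgroup.mem_center_iff]
    intro g
    exact Subtype.ext (hall g.1 g.2).symm

end Cfsg.Agent.Lib.Helper24.ES3
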