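import Mathlib
import Cfsg.Agent.Lib.Helper24.ES3.Defs

set_option autoImplicit false

/-! # helper24's farm ES3: auxiliary lemmas for the pieces A1-A6 -/

namespace Cfsg.Agent.Lib.Helper2.ES3

open Cfsg.Agent.Lib.Helper24.ES3

variable {G : Type*} [Group G]

theorem comm_aux (u v a b : G) (hav : a * v = v * a) (hab : a * b = b * a)
    (hbu : b * u = u * b) :
    (u * a) * (v * b) * (u * a)⁻¹ * (v * b)⁻¹ = u * v * u⁻¹ * v⁻¹ := by
  have hbu' : b * u⁻¹ = u⁻¹ * b := by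
    calc b * u⁻¹ = u⁻¹ * (u * b) * u⁻¹ := by group
      _ = u⁻¹ * (b * u) * u⁻¹ := by rw [hbu]
      _ = u⁻¹ * b := by group
  calc (u * a) * (v * b) * (u * a)⁻¹ * (v * b)⁻¹
      = u * (a * v) * b * a⁻¹ * u⁻¹ * b⁻¹ * v⁻¹ := by group
    _ = u * (v * a) * b * a⁻¹ * u⁻¹ * b⁻¹ * v⁻¹ := by rw [hav]
    _ = u * v * (a * b) * a⁻¹ * u⁻¹ * b⁻¹ * v⁻¹ := by group
    _ = u * v * (b * a) * a⁻¹ * u⁻¹ * b⁻¹ * v⁻¹ := by rw [hab]
    _ = u * v * (b * u⁻¹) * b⁻¹ * v⁻¹ := by group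
    _ = u * v * (u⁻¹ * b) * b⁻¹ * v⁻¹ := by rw [hbu']
    _ = u * v * u⁻¹ * v⁻¹ := by group

theorem zpow_comm {p : ℕ} {P : Subgroup G} {z : G} (h : Dat p P z) {x : G} (hx : x ∈ P) (k : ℕ) :
    x * z ^ k = z ^ k * x :=
  ((show Commute x z from h.zc x hx).pow_right k).eq

theorem orderOf_z {p : ℕ} [Fact p.Prime] {P : Subgroup G} {z : G} (h : Dat p P z) :
    orderOf z = p := orderOf_eq_prime (h.exp z h.zP) h.z1

/-- in a group of prime exponent every non-trivial power generates -/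
theorem exists_pow_pow {p : ℕ} [Fact p.Prime] {g : G} (hg : g ^ p = 1) {d : ℕ} (hd : g ^ d ≠ 1) :
    ∃ m : ℕ, (g ^ d) ^ m = g := by
  have hp : p.Prime := Fact.out
  have hg1 : g ≠ 1 := by
    rintro rfl
    exact hd (one_pow d)
  have ho : orderOf g = p := orderOf_eq_prime hg hg1
  have hnd : ¬ p ∣ d := by
    intro hdvd
    apply hd
    rw [← ho] at hdvd
    exact orderOf_dvd_iff_pow_eq_one.1 hdvd
  have hcop : Nat.Coprime d p := ((Nat.Prime.coprime_iff_not_dvd hp).2 hnd).symm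
  obtain ⟨m, -, hm⟩ := Nat.exists_mul_mod_eq_one_of_coprime hcop hp.one_lt
  refine ⟨m, ?_⟩
  rw [← pow_mul, ← pow_mod_orderOf, ho, hm, pow_one]

/-- counting: two subgroups with trivial intersection and enough elements fill `A` -/
theorem exists_factor (B Z A : Subgroup G) [Finite A] (hB : B ≤ A) (hZ : Z ≤ A)
    (hdisj : ∀ c, c ∈ B → c ∈ Z → c = 1) (hcard : Nat.card A ≤ Nat.card B * Nat.card Z) :
    ∀ x ∈ A, ∃ b ∈ B, ∃ c ∈ Z, x = b * c := by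
  let f : B × Z → A := fun q => ⟨q.1.1 * q.2.1, A.mul_mem (hB q.1.2) (hZ q.2.2)⟩
  have hinj : Function.Injective f := by
    rintro ⟨b, c⟩ ⟨b', c'⟩ hq
    have h1 : b.1 * c.1 = b'.1 * c'.1 := congrArg Subtype.val hq
    have h2 : b'.1⁻¹ * b.1 = c'.1 * c.1⁻¹ := by
      calc b'.1⁻¹ * b.1 = b'.1⁻¹ * (b.1 * c.1) * c.1⁻¹ := by group
        _ = b'.1⁻¹ * (b'.1 * c'.1) * c.1⁻¹ := by rw [h1]
        _ = c'.1 * c.1⁻¹ := by group
    have h3 : b'.1⁻¹ * b.1 = 1 :=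
      hdisj _ (B.mul_mem (B.inv_mem b'.2) b.2) (h2 ▸ Z.mul_mem c'.2 (Z.inv_mem c.2))
    have h4 : c'.1 * c.1⁻¹ = 1 := h2 ▸ h3
    have e1 : b = b' := Subtype.ext (inv_mul_eq_one.1 h3).symm
    have e2 : c = c' := Subtype.ext (mul_inv_eq_one.1 h4).symm
    rw [e1, e2]
  have hbij := hinj.bijective_of_nat_card_le (by rw [Nat.card_prod]; exact hcard)
  intro x hx
  obtain ⟨⟨b, c⟩, hq⟩ := hbij.2 ⟨x, hx⟩
  exact ⟨b.1, b.2, c.1, c.2, (congrArg Subtype.val hq).symm⟩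

theorem mem_zpowers_nat [Finite G] {g c : G} (hc : c ∈ Subgroup.zpowers g) : ∃ k : ℕ, c = g ^ k := by
  rw [← mem_powers_iff_mem_zpowers] at hc
  obtain ⟨k, hk⟩ := hc
  exact ⟨k, hk.symm⟩

/-- `P` is not contained in `⟨z⟩` -/
theorem exists_not_pow {p : ℕ} [Fact p.Prime] {P : Subgroup G} {z : G} (h : Dat p P z) :
    ∃ w ∈ P, ∀ k : ℕ, w ≠ z ^ k := by
  by_contra hcon
  push Not at hcon
  have hle : P ≤ Subgroup.zpowers z := by
    intro w hw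
    obtain ⟨k, rfl⟩ := hcon w hw
    exact Subgroup.pow_mem _ (Subgroup.mem_zpowers z) k
  have hdvd := Subgroup.card_dvd_of_le hle
  rw [h.card, Nat.card_zpowers, orderOf_z h] at hdvd
  have hp : p.Prime := Fact.out
  have h1 := Nat.le_of_dvd hp.pos hdvd
  have h2 : p ^ 1 < p ^ 3 := Nat.pow_lt_pow_right hp.one_lt (by norm_num)
  rw [pow_one] at h2
  omega

end Cfsg.Agent.Lib.Helper2.ES3
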