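import Mathlib
import Cfsg.Agent.Lib.Helper24.ES3.Defs
import Cfsg.Agent.Lib.Helper2.ES3.Base

set_option autoImplicit false

namespace Cfsg.Agent.Lib.Helper24.ES3

open Cfsg.Agent.Lib.Helper2.ES3

variable {G : Type*} [Group G]

/-- A2 -/
theorem conj_pow_of_comm {p : ℕ} {P : Subgroup G} {z : G} (h : Dat p P z)
    {x y : G} (hx : x ∈ P) (hy : y ∈ P) {e : ℕ} (hxy : x * y * x⁻¹ * y⁻¹ = z ^ e)
    (i j k l : ℕ) :
    (x ^ i * z ^ k) * (y ^ j * z ^ l) * (x ^ i * z ^ k)⁻¹ * (y ^ j * z ^ l)⁻¹ = z ^ (e * i * j) := by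
  have hxy' : x * y * x⁻¹ = z ^ e * y := by
    calc x * y * x⁻¹ = (x * y * x⁻¹ * y⁻¹) * y := by group
      _ = z ^ e * y := by rw [hxy]
  have s1 : ∀ i : ℕ, x ^ i * y * (x ^ i)⁻¹ = z ^ (e * i) * y := by
    intro i
    induction i with
    | zero => simp
    | succ i ih =>
      calc x ^ (i + 1) * y * (x ^ (i + 1))⁻¹ = x * (x ^ i * y * (x ^ i)⁻¹) * x⁻¹ := by
            rw [pow_succ']; group
        _ = x * (z ^ (e * i) * y) * x⁻¹ := by rw [ih]
        _ = (x * z ^ (e * i)) * y * x⁻¹ := by group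
        _ = (z ^ (e * i) * x) * y * x⁻¹ := by rw [zpow_comm h hx]
        _ = z ^ (e * i) * (x * y * x⁻¹) := by group
        _ = z ^ (e * i) * (z ^ e * y) := by rw [hxy']
        _ = z ^ (e * (i + 1)) * y := by rw [← mul_assoc, ← pow_add, mul_add, mul_one]
  have s2 : x ^ i * y ^ j * (x ^ i)⁻¹ = z ^ (e * i * j) * y ^ j := by
    rw [← conj_pow, s1 i]
    have hc : Commute (z ^ (e * i)) y := (zpow_comm h hy (e * i)).symm
    rw [hc.mul_pow, ← pow_mul]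
  have hxi : x ^ i ∈ P := P.pow_mem hx i
  have hyj : y ^ j ∈ P := P.pow_mem hy j
  rw [comm_aux (x ^ i) (y ^ j) (z ^ k) (z ^ l) (zpow_comm h hyj k).symm
    ((Commute.refl z).pow_pow k l).eq (zpow_comm h hxi l).symm, s2]
  group

end Cfsg.Agent.Lib.Helper24.ES3
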