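import Mathlib
import Cfsg.Agent.Lib.Helper24.ES3.Defs
import Cfsg.Agent.Lib.Helper2.ES3.Base
import Cfsg.Agent.Lib.Helper2.ES3.A2

set_option autoImplicit false

namespace Cfsg.Agent.Lib.Helper24.ES3

open Cfsg.Agent.Lib.Helper2.ES3

variable {G : Type*} [Group G]

/-- A3 -/
theorem exists_conj {p : ℕ} [Fact p.Prime] {P : Subgroup G} {z : G} (h : Dat p P z)
    {w : G} (hw : w ∈ P) (hwz : ∀ k : ℕ, w ≠ z ^ k) :
    ∃ y ∈ P, y * w * y⁻¹ = w * z := by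
  have hnc : ∃ y0 ∈ P, w * y0 ≠ y0 * w := by
    by_contra hcon
    push Not at hcon
    obtain ⟨k, hk⟩ := h.cen w hw hcon
    exact hwz k hk
  obtain ⟨y0, hy0, hne⟩ := hnc
  obtain ⟨e, he⟩ := h.comm y0 hy0 w hw
  have he1 : z ^ e ≠ 1 := by
    intro h1
    apply hne
    rw [h1] at he
    calc w * y0 = (y0 * w * y0⁻¹ * w⁻¹)⁻¹ * (y0 * w) := by group
      _ = y0 * w := by rw [he, inv_one, one_mul]
  obtain ⟨m, hm⟩ := exists_pow_pow (h.exp z h.zP) he1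
  have h2 := conj_pow_of_comm h hy0 hw he m 1 0 0
  simp only [pow_zero, mul_one, pow_one] at h2
  rw [pow_mul, hm] at h2
  refine ⟨y0 ^ m, P.pow_mem hy0 m, ?_⟩
  calc y0 ^ m * w * (y0 ^ m)⁻¹ = (y0 ^ m * w * (y0 ^ m)⁻¹ * w⁻¹) * w := by group
    _ = z * w := by rw [h2]
    _ = w * z := (h.zc w hw).symm

end Cfsg.Agent.Lib.Helper24.ES3
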