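import Mathlib
import Cfsg.Agent.Lib.Helper24.ES3.Defs
import Cfsg.Agent.Lib.Helper2.ES3.Base
import Cfsg.Agent.Lib.Helper2.ES3.A3

set_option autoImplicit false

namespace Cfsg.Agent.Lib.Helper24.ES3

open Cfsg.Agent.Lib.Helper2.ES3

variable {G : Type*} [Group G]

/-- A4 -/
theorem exists_noncomm {p : ℕ} [Fact p.Prime] {P : Subgroup G} {z : G} (h : Dat p P z) :
    ∃ x ∈ P, ∃ y ∈ P, x * y * x⁻¹ * y⁻¹ = z := by
  obtain ⟨w, hw, hwz⟩ := exists_not_pow h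
  obtain ⟨y, hy, hyw⟩ := exists_conj h hw hwz
  refine ⟨y, hy, w, hw, ?_⟩
  rw [hyw, h.zc w hw]
  group

end Cfsg.Agent.Lib.Helper24.ES3
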